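import Cfsg.Agent.H282.SK.Def
import Cfsg.Prelude.Def_Classification2

/-!
# S3010 (Sidki pairs): the sporadic rows together (helper738)
-/

set_option autoImplicit false
set_option linter.unusedVariables false

universe u

open Subgroup Cfsg Cfsg.Agent.H282.SK

namespace Cfsg.Agent.H738.SK

theorem deadS_or {P Q : (K : Type u) → [Group K] → Prop} (hP : DeadS.{u} P) (hQ : DeadS.{u} Q) :
    DeadS.{u} (fun K _ => P K ∨ Q K) := by
  intro G _ _ V K h hPQ
  rcases hPQ with h1 | h1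
  · exact hP V K h h1
  · exact hQ V K h h1

/-- All 26 rows give the sporadic groups. -/
theorem deadS_sporadic
    (M11 : DeadS.{u} (fun K _ => Spor.IsoM11 K)) (M12 : DeadS.{u} (fun K _ => Spor.IsoM12 K))
    (M22 : DeadS.{u} (fun K _ => Spor.IsoM22 K)) (M23 : DeadS.{u} (fun K _ => Spor.IsoM23 K))
    (M24 : DeadS.{u} (fun K _ => Spor.IsoM24 K)) (J1 : DeadS.{u} (fun K _ => Spor.IsoJ1 K))
    (J2 : DeadS.{u} (fun K _ => Spor.IsoJ2 K)) (J3 : DeadS.{u} (fun K _ => Spor.IsoJ3 K))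
    (J4 : DeadS.{u} (fun K _ => Spor.IsoJ4 K)) (Co1 : DeadS.{u} (fun K _ => Spor.IsoCo1 K))
    (Co2 : DeadS.{u} (fun K _ => Spor.IsoCo2 K)) (Co3 : DeadS.{u} (fun K _ => Spor.IsoCo3 K))
    (McL : DeadS.{u} (fun K _ => Spor.IsoMcL K)) (HS : DeadS.{u} (fun K _ => Spor.IsoHS K))
    (Suz : DeadS.{u} (fun K _ => Spor.IsoSuz K)) (He : DeadS.{u} (fun K _ => Spor.IsoHe K))
    (Ru : DeadS.{u} (fun K _ => Spor.IsoRu K)) (ON : DeadS.{u} (fun K _ => Spor.IsoON K))
    (Ly : DeadS.{u} (fun K _ => Spor.IsoLy K)) (Fi22 : DeadS.{u} (fun K _ => Spor.IsoFi22 K))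
    (Fi23 : DeadS.{u} (fun K _ => Spor.IsoFi23 K)) (Fi24 : DeadS.{u} (fun K _ => Spor.IsoFi24' K))
    (HN : DeadS.{u} (fun K _ => Spor.IsoHN K)) (Th : DeadS.{u} (fun K _ => Spor.IsoTh K))
    (B : DeadS.{u} (fun K _ => Spor.IsoB K)) (M : DeadS.{u} (fun K _ => Spor.IsoM K)) :
    DeadS.{u} (fun K _ => IsSporadicGroup K) := by
  intro G _ _ V K h hK
  rcases hK with h1 | h1 | h1 | h1 | h1 | h1 | h1 | h1 | h1 | h1 | h1 | h1 | h1 | h1 | h1 | h1 | h1 | h1 | h1 |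
    h1 | h1 | h1 | h1 | h1 | h1 | h1
  · exact M11 V K h h1
  · exact M12 V K h h1
  · exact M22 V K h h1
  · exact M23 V K h h1
  · exact M24 V K h h1
  · exact J1 V K h h1
  · exact J2 V K h h1
  · exact J3 V K h h1
  · exact J4 V K h h1
  · exact Co1 V K h h1
  · exact Co2 V K h h1
  · exact Co3 V K h h1
  · exact McL V K h h1
  · exact HS V K h h1
  · exact Suz V K h h1
  · exact He V K h h1
  · exact Ru V K h h1
  · exact ON V K h h1
  · exact Ly V K h h1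
  · exact Fi22 V K h h1
  · exact Fi23 V K h h1
  · exact Fi24 V K h h1
  · exact HN V K h h1
  · exact Th V K h h1
  · exact B V K h h1
  · exact M V K h h1

end Cfsg.Agent.H738.SK
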